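import Mathlib
import Cfsg.Agent.Transfer.Residual

/-!
Quadratic elements and points with a unique Sylow fixed point: the orbit-sum argument.
-/

set_option autoImplicit false
set_option linter.style.haveILetI false

namespace CfsgLib.WeakCentral

open scoped commutatorElement

variable {G : Type*} [Group G] {p : ℕ}

/-- The orbit of `x` under conjugation by `X`. -/
def orb (X : Subgroup G) (x : G) : Set G := {y | ∃ g ∈ X, g * x * g⁻¹ = y}

theorem self_mem_orb (X : Subgroup G) (x : G) : x ∈ orb X x := ⟨1, X.one_mem, by group⟩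

theorem conj_mem_orb {X : Subgroup G} {x g y : G} (hg : g ∈ X) (hy : y ∈ orb X x) :
    g * y * g⁻¹ ∈ orb X x := by
  obtain ⟨h, hh, rfl⟩ := hy
  exact ⟨g * h, X.mul_mem hg hh, by group⟩

/-- A `p`-element acting quadratically on the orbit. -/
def IsQuad (p : ℕ) (X : Subgroup G) (x a : G) : Prop :=
  a ∈ X ∧ (∃ k : ℕ, a ^ p ^ k = 1) ∧ ∀ y ∈ orb X x, Commute a ⁅a, y⁆

theorem IsQuad.conj {X : Subgroup G} {x a g : G} (ha : IsQuad p X x a) (hg : g ∈ X) :
    IsQuad p X x (g * a * g⁻¹) := by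
  obtain ⟨h1, ⟨k, hk⟩, h2⟩ := ha
  refine ⟨X.mul_mem (X.mul_mem hg h1) (X.inv_mem hg), ⟨k, by rw [conj_pow, hk]; group⟩, fun y hy => ?_⟩
  have h := (h2 _ (conj_mem_orb (X.inv_mem hg) hy)).map (MulAut.conj g).toMonoidHom
  have e : (MulAut.conj g).toMonoidHom ⁅a, g⁻¹ * y * g⁻¹⁻¹⁆ = ⁅g * a * g⁻¹, y⁆ := by
    rw [map_commutatorElement]
    congr 1
    simp [mul_assoc]
  rwa [e] at h

theorem pow_conj_of_quad {a y : G} (h : Commute a ⁅a, y⁆) (n : ℕ) :
    a ^ n * y * (a ^ n)⁻¹ = ⁅a, y⁆ ^ n * y := by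
  induction n with
  | zero => simp
  | succ n ih =>
    have h1 : a * y * a⁻¹ = ⁅a, y⁆ * y := by rw [commutatorElement_def]; group
    calc a ^ (n + 1) * y * (a ^ (n + 1))⁻¹ = a * (a ^ n * y * (a ^ n)⁻¹) * a⁻¹ := by
          rw [pow_succ']; group
      _ = (a * ⁅a, y⁆ ^ n * a⁻¹) * (a * y * a⁻¹) := by rw [ih]; group
      _ = ⁅a, y⁆ ^ n * (⁅a, y⁆ * y) := by
          rw [h1, (h.pow_right n).eq, mul_inv_cancel_right]
      _ = _ := by rw [pow_succ, mul_assoc]

theorem map_eq_of_mem {R : Subgroup G} {n : G} (hn : n ∈ Subgroup.normalizer (R : Set G)) :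
    R.map (MulAut.conj n).toMonoidHom = R :=
  Subgroup.mem_normalizer_iff_map_conj_eq.1 hn

variable [Finite G] [hp : Fact p.Prime]

open scoped IsMulCommutative in
/-- If a quadratic element normalising a set fixes only the point `z` of it, everything normalising the
set fixes `z`. -/
theorem fix_of_sum (hp2 : p ≠ 2) (Ω : Finset G) (hcomm : ∀ y ∈ Ω, ∀ w ∈ Ω, Commute y w)
    (hdiff : ∀ y ∈ Ω, ∀ w ∈ Ω, (y * w⁻¹) ^ p = 1) {z a : G} (hz : z ∈ Ω)
    (ha : ∀ y ∈ Ω, a * y * a⁻¹ ∈ Ω) (hak : ∃ k : ℕ, a ^ p ^ k = 1)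
    (hquad : ∀ y ∈ Ω, Commute a ⁅a, y⁆) (hfixz : Commute a z)
    (honly : ∀ y ∈ Ω, Commute a y → y = z) {g : G} (hg : ∀ y ∈ Ω, g * y * g⁻¹ ∈ Ω) :
    g * z * g⁻¹ = z := by
  classical
  set V := Subgroup.closure (Ω : Set G) with hV
  haveI : IsMulCommutative V := Subgroup.isMulCommutative_closure fun y hy w hw => hcomm y hy w hw
  -- the function `y ↦ y z⁻¹`
  let f : G → V := fun y => if h : y ∈ Ω then ⟨y, Subgroup.subset_closure h⟩ else 1
  have hf : ∀ y ∈ Ω, ((f y : V) : G) = y := fun y hy => by simp [f, hy]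
  set d : G → V := fun y => f y * (f z)⁻¹ with hd
  have hdp : ∀ y ∈ Ω, d y ^ p = 1 := fun y hy => Subtype.ext (by
    rw [Subgroup.coe_pow, hd]
    show ((f y : G) * ((f z)⁻¹ : V)) ^ p = 1
    rw [Subgroup.coe_inv, hf y hy, hf z hz]
    exact hdiff y hy z hz)
  -- orbits of `a`
  set o : G → Finset G := fun y => (Finset.range p).image fun i => a ^ i * y * (a ^ i)⁻¹ with ho
  have hpowΩ : ∀ y ∈ Ω, ∀ i : ℕ, a ^ i * y * (a ^ i)⁻¹ ∈ Ω := by
    intro y hy i
    induction i with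
    | zero => simpa using hy
    | succ i ih =>
      rw [show a ^ (i + 1) * y * (a ^ (i + 1))⁻¹ = a * (a ^ i * y * (a ^ i)⁻¹) * a⁻¹ by
        rw [pow_succ']; group]
      exact ha _ ih
  have hdp' : ∀ y ∈ Ω, ⁅a, y⁆ ^ p = 1 := fun y hy => by
    rw [commutatorElement_def]
    exact hdiff _ (ha y hy) y hy
  have hmod : ∀ y ∈ Ω, ∀ i : ℕ, a ^ i * y * (a ^ i)⁻¹ = a ^ (i % p) * y * (a ^ (i % p))⁻¹ := by
    intro y hy i
    rw [pow_conj_of_quad (hquad y hy), pow_conj_of_quad (hquad y hy),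
      ← pow_eq_pow_mod i (hdp' y hy)]
  have hprod : ∀ y ∈ Ω, y ≠ z → ∀ (e : V), (e : G) = ⁅a, y⁆ →
      ∏ w ∈ o y, d w = 1 := by
    intro y hy hyz e he
    have hne : ⁅a, y⁆ ≠ 1 := fun h => hyz (honly y hy (commutatorElement_eq_one_iff_commute.1 h))
    have hord : orderOf ⁅a, y⁆ = p := orderOf_eq_prime (hdp' y hy) hne
    have hdi : ∀ i : ℕ, d (a ^ i * y * (a ^ i)⁻¹) = e ^ i * d y := by
      intro i
      refine Subtype.ext ?_
      simp only [hd, Subgroup.coe_mul, Subgroup.coe_pow, Subgroup.coe_inv]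
      rw [hf _ (hpowΩ y hy i), hf y hy, pow_conj_of_quad (hquad y hy), he, mul_assoc]
    rw [ho, Finset.prod_image]
    · rw [Finset.prod_congr rfl fun i _ => hdi i, Finset.prod_mul_distrib, Finset.prod_pow_eq_pow_sum,
        Finset.prod_const, Finset.card_range, hdp y hy, mul_one]
      have h2 : p ∣ ∑ i ∈ Finset.range p, i := by
        rw [Finset.sum_range_id]
        obtain ⟨k, hk⟩ := (hp.out.odd_of_ne_two hp2)
        refine ⟨k, ?_⟩
        rw [show p * (p - 1) = p * k * 2 by rw [show p - 1 = k * 2 by omega, mul_assoc],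
          Nat.mul_div_cancel _ two_pos]
      obtain ⟨m, hm⟩ := h2
      rw [hm, pow_mul, show e ^ p = 1 from Subtype.ext (by rw [Subgroup.coe_pow, he]; exact hdp' y hy), one_pow]
    · intro i hi j hj hij
      rw [Finset.coe_range, Set.mem_Iio] at hi hj
      simp only [pow_conj_of_quad (hquad y hy), mul_left_inj] at hij
      exact pow_injOn_Iio_orderOf (by rw [Set.mem_Iio, hord]; exact hi)
        (by rw [Set.mem_Iio, hord]; exact hj) hij
  have hsum : ∏ y ∈ Ω, d y = 1 := by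
    rw [← Finset.prod_fiberwise_of_maps_to (g := o) (fun y hy => Finset.mem_image_of_mem o hy)]
    refine Finset.prod_eq_one fun O hO => ?_
    obtain ⟨y, hy, rfl⟩ := Finset.mem_image.1 hO
    have hfilter : Ω.filter (fun w => o w = o y) = o y := by
      ext w
      rw [Finset.mem_filter]
      constructor
      · rintro ⟨-, h⟩
        rw [← h, ho]
        exact Finset.mem_image.2 ⟨0, Finset.mem_range.2 hp.out.pos, by simp⟩
      · intro hw
        obtain ⟨i, hi, rfl⟩ := Finset.mem_image.1 hw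
        refine ⟨hpowΩ y hy i, ?_⟩
        rw [Finset.mem_range] at hi
        ext u
        simp only [ho, Finset.mem_image, Finset.mem_range]
        have hcomp : ∀ j, a ^ j * (a ^ i * y * (a ^ i)⁻¹) * (a ^ j)⁻¹ = a ^ (j + i) * y * (a ^ (j + i))⁻¹ :=
          fun j => by rw [pow_add]; group
        constructor
        · rintro ⟨j, hj, rfl⟩
          exact ⟨(j + i) % p, Nat.mod_lt _ hp.out.pos, by rw [hcomp, ← hmod y hy]⟩
        · rintro ⟨j, hj, rfl⟩
          refine ⟨(j + (p - i)) % p, Nat.mod_lt _ hp.out.pos, ?_⟩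
          rw [hcomp, hmod y hy, Nat.mod_add_mod, show j + (p - i) + i = j + p by omega,
            Nat.add_mod_right, ← hmod y hy]
    rw [hfilter]
    by_cases hyz : y = z
    · subst hyz
      refine Finset.prod_eq_one fun w hw => ?_
      obtain ⟨i, -, rfl⟩ := Finset.mem_image.1 hw
      rw [(hfixz.pow_left i).eq, mul_inv_cancel_right]
      simp [hd]
    · exact hprod y hy hyz ⟨⁅a, y⁆, by
        rw [commutatorElement_def]
        exact V.mul_mem (Subgroup.subset_closure (ha y hy)) (V.inv_mem (Subgroup.subset_closure hy))⟩ rfl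
  -- the only fixed point is `z`, so `#Ω` is prime to `p`
  have hcard : ¬ p ∣ Ω.card := by
    intro hdvd
    obtain ⟨k, hk⟩ := hak
    set A := Subgroup.zpowers a
    have hA : IsPGroup p A := IsPGroup.of_card (n := (Nat.card A).factorization p) (by
      obtain ⟨j, -, hj⟩ := (Nat.dvd_prime_pow hp.out).1 (orderOf_dvd_of_pow_eq_one hk)
      rw [Nat.card_zpowers, hj, Nat.Prime.factorization_pow hp.out, Finsupp.single_eq_same])
    have hAΩ : ∀ g : A, ∀ y ∈ Ω, (g : G) * y * (g : G)⁻¹ ∈ Ω := by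
      intro g y hy
      obtain ⟨i, hi⟩ := (mem_powers_iff_mem_zpowers.2 g.2 : (g : G) ∈ Submonoid.powers a)
      rw [← hi]
      exact hpowΩ y hy i
    letI : MulAction A Ω :=
      { smul := fun g y => ⟨(g : G) * y * (g : G)⁻¹, hAΩ g y y.2⟩
        one_smul := fun y => Subtype.ext (show (1 : G) * y * (1 : G)⁻¹ = y by group)
        mul_smul := fun g h y => Subtype.ext
          (show ((g : G) * h) * y * ((g : G) * h)⁻¹ = g * (h * y * (h : G)⁻¹) * (g : G)⁻¹ by group) }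
    have h := hA.card_modEq_card_fixedPoints (α := Ω)
    have h1 : Nat.card (MulAction.fixedPoints A Ω) = 1 := by
      rw [Nat.card_eq_one_iff_unique]
      refine ⟨⟨fun u v => ?_⟩, ⟨⟨⟨z, hz⟩, fun g => Subtype.ext ?_⟩⟩⟩
      · have key : ∀ u : MulAction.fixedPoints A Ω, ((u : Ω) : G) = z := fun u => by
          refine honly _ (u : Ω).2 ?_
          have := congrArg Subtype.val (u.2 ⟨a, Subgroup.mem_zpowers a⟩)
          exact mul_inv_eq_iff_eq_mul.1 this
        exact Subtype.ext (Subtype.ext ((key u).trans (key v).symm))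
      · obtain ⟨i, hi⟩ := Subgroup.mem_zpowers_iff.1 g.2
        show (g : G) * z * (g : G)⁻¹ = z
        rw [← hi, (hfixz.zpow_left i).eq, mul_inv_cancel_right]
    rw [h1, Nat.card_eq_fintype_card, Fintype.card_coe] at h
    have := (Nat.modEq_zero_iff_dvd.2 hdvd).symm.trans h
    exact hp.out.one_lt.ne' (Nat.dvd_one.1 (Nat.modEq_zero_iff_dvd.1 this.symm))
  -- conjugation by `g`
  let c : V →* V :=
    { toFun := fun v => ⟨g * v * g⁻¹, by
        have h : V.map (MulAut.conj g).toMonoidHom ≤ V := by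
          rw [hV, MonoidHom.map_closure, Subgroup.closure_le]
          rintro _ ⟨y, hy, rfl⟩
          exact Subgroup.subset_closure (hg y hy)
        exact h ⟨v, v.2, rfl⟩⟩
      map_one' := Subtype.ext (by simp)
      map_mul' := fun u v => Subtype.ext (by simp [mul_assoc]) }
  have hcf : ∀ y ∈ Ω, c (f y) = f (g * y * g⁻¹) := fun y hy => Subtype.ext (by
    show g * (f y : G) * g⁻¹ = (f (g * y * g⁻¹) : G)
    rw [hf y hy, hf _ (hg y hy)])
  have h2 : ∏ y ∈ Ω, c (d y) = 1 := by rw [← map_prod, hsum, map_one]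
  have h3 : ∀ y ∈ Ω, c (d y) = d (g * y * g⁻¹) * (f z * (c (f z))⁻¹) := fun y hy => by
    rw [hd]
    simp only [map_mul, map_inv, hcf y hy]
    group
  have hperm : ∏ y ∈ Ω, d (g * y * g⁻¹) = ∏ y ∈ Ω, d y := by
    refine Finset.prod_bij (fun y _ => g * y * g⁻¹) (fun y hy => hg y hy) (fun y _ w _ h => by simpa using h) ?_
      (fun _ _ => rfl)
    intro w hw
    have himg : Ω.image (fun y => g * y * g⁻¹) = Ω := Finset.eq_of_subset_of_card_le
      (Finset.image_subset_iff.2 hg) (by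
        rw [Finset.card_image_of_injective _ fun y w h => by simpa using h])
    obtain ⟨y, hy, e⟩ := Finset.mem_image.1 (himg.symm ▸ hw)
    exact ⟨y, hy, e⟩
  rw [Finset.prod_congr rfl h3, Finset.prod_mul_distrib, hperm, hsum, one_mul, Finset.prod_const] at h2
  have h4 : (f z * (c (f z))⁻¹ : V) = 1 := by
    refine orderOf_eq_one_iff.1 (Nat.eq_one_of_dvd_coprimes (hp.out.coprime_iff_not_dvd.2 hcard)
      (orderOf_dvd_of_pow_eq_one (Subtype.ext ?_)) (orderOf_dvd_of_pow_eq_one h2))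
    rw [hcf z hz, Subgroup.coe_pow, Subgroup.coe_mul, Subgroup.coe_inv, hf z hz, hf _ (hg z hz)]
    exact hdiff _ hz _ (hg z hz)
  rw [mul_inv_eq_one] at h4
  have := congrArg Subtype.val h4
  rw [hcf z hz, hf z hz, hf _ (hg z hz)] at this
  exact this.symm

/-- **Quadratic elements fix the orbit.** `X` is a minimal overgroup of its Sylow subgroup `T` not fixing
`x`, and `T` fixes only `x` in the orbit. -/
theorem quad_centralizes (hp2 : p ≠ 2) {X T : Subgroup G} {x : G} (hTX : T ≤ X) (hT : IsPGroup p T)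
    (hTi : ¬ p ∣ T.relIndex X) (hTx : T ≤ Subgroup.centralizer {x})
    (hcomm : ∀ y ∈ orb X x, ∀ w ∈ orb X x, Commute y w)
    (hdiff : ∀ y ∈ orb X x, ∀ w ∈ orb X x, (y * w⁻¹) ^ p = 1)
    (huniq : ∀ y ∈ orb X x, T ≤ Subgroup.centralizer {y} → y = x)
    (hproper : ∀ X' : Subgroup G, T ≤ X' → X' < X → X' ≤ Subgroup.centralizer {x})
    {a : G} (ha : IsQuad p X x a) : ∀ y ∈ orb X x, Commute a y := by
  classical
  by_contra hcon
  push Not at hcon
  obtain ⟨y₀, hy₀, hay₀⟩ := hcon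
  set M := {b : G | IsQuad p X x b}
  let C : G → Subgroup G := fun y => Subgroup.centralizer {y}
  -- conjugates of `T`
  have hCconj : ∀ (g y : G) (R : Subgroup G), R ≤ C y →
      R.map (MulAut.conj g).toMonoidHom ≤ C (g * y * g⁻¹) := by
    rintro g y R h _ ⟨r, hr, rfl⟩
    have := Subgroup.mem_centralizer_singleton_iff.1 (h hr)
    exact Subgroup.mem_centralizer_singleton_iff.2
      (show g * r * g⁻¹ * (g * y * g⁻¹) = g * y * g⁻¹ * (g * r * g⁻¹) by
        calc g * r * g⁻¹ * (g * y * g⁻¹) = g * (r * y) * g⁻¹ := by group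
          _ = g * (y * r) * g⁻¹ := by rw [this]
          _ = _ := by group)
  -- every point with a `p`-subgroup fixing it lies under a conjugate of `T`
  have hsyl : ∀ z ∈ orb X x, ∀ R : Subgroup G, IsPGroup p R → R ≤ X → R ≤ C z →
      ∃ g ∈ X, g * x * g⁻¹ = z ∧ R ≤ T.map (MulAut.conj g).toMonoidHom := by
    rintro _ ⟨g, hg, rfl⟩ R hR hRX hRz
    set H := X ⊓ C x
    have hTH : T ≤ H := le_inf hTX hTx
    have hi : ¬ p ∣ (T.subgroupOf H).index := fun h => hTi (h.trans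
      (Dvd.intro _ (Subgroup.relIndex_mul_relIndex T H X hTH inf_le_left)))
    let TS : Sylow p H := IsPGroup.toSylow (hT.comap_subtype : IsPGroup p (T.subgroupOf H)) hi
    have hR' : R.map (MulAut.conj g⁻¹).toMonoidHom ≤ H := by
      refine le_inf ?_ ?_
      · rintro _ ⟨r, hr, rfl⟩
        exact X.mul_mem (X.mul_mem (X.inv_mem hg) (hRX hr)) (X.inv_mem (X.inv_mem hg))
      · have := hCconj g⁻¹ _ R hRz
        rwa [show g⁻¹ * (g * x * g⁻¹) * g⁻¹⁻¹ = x by group] at this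
    obtain ⟨U, hU⟩ := ((hR.map _).comap_subtype :
      IsPGroup p ((R.map (MulAut.conj g⁻¹).toMonoidHom).subgroupOf H)).exists_le_sylow
    obtain ⟨h, hh⟩ := MulAction.exists_smul_eq H TS U
    refine ⟨g * (h : G), X.mul_mem hg h.2.1, ?_, fun r hr => ?_⟩
    · have := Subgroup.mem_centralizer_singleton_iff.1 h.2.2
      calc g * (h : G) * x * (g * (h : G))⁻¹ = g * ((h : G) * x) * (h : G)⁻¹ * g⁻¹ := by group
        _ = g * x * g⁻¹ := by rw [this]; group
    · have hr' : g⁻¹ * r * g⁻¹⁻¹ ∈ R.map (MulAut.conj g⁻¹).toMonoidHom := ⟨r, hr, rfl⟩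
      have h1 := hU (show (⟨_, hR' hr'⟩ : H) ∈ _ from hr')
      rw [← hh, Sylow.coe_subgroup_smul] at h1
      obtain ⟨t, ht, hte⟩ := h1
      refine ⟨(t : G), ht, ?_⟩
      have h2 : (h : G) * t * (h : G)⁻¹ = g⁻¹ * r * g⁻¹⁻¹ := congrArg Subtype.val hte
      show g * (h : G) * t * (g * (h : G))⁻¹ = r
      calc g * (h : G) * t * (g * (h : G))⁻¹ = g * ((h : G) * t * (h : G)⁻¹) * g⁻¹ := by group
        _ = r := by rw [h2]; group
  -- the family
  set Fam := {R : Subgroup G | R ≤ X ∧ IsPGroup p R ∧ R = Subgroup.closure ((R : Set G) ∩ M) ∧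
    ∃ y ∈ orb X x, ∃ w ∈ orb X x, y ≠ w ∧ R ≤ C y ∧ R ≤ C w}
  have hbot : (⊥ : Subgroup G) ∈ Fam := by
    refine ⟨bot_le, IsPGroup.of_bot, le_antisymm bot_le ((Subgroup.closure_le _).2 fun _ h => h.1),
      y₀, hy₀, a * y₀ * a⁻¹, conj_mem_orb ha.1 hy₀, fun h => hay₀ ?_, bot_le, bot_le⟩
    exact mul_inv_eq_iff_eq_mul.1 h.symm
  obtain ⟨R, ⟨hRX, hRp, hRgen, y₁, hy₁, y₂, hy₂, hne, hR1, hR2⟩, hmax⟩ :=
    Set.exists_max_image Fam (fun R => Nat.card R) (Set.toFinite _) ⟨⊥, hbot⟩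
  set N := X ⊓ Subgroup.normalizer (R : Set G) with hN
  -- the key dichotomy
  have hkey : ∀ g ∈ X, R ≤ T.map (MulAut.conj g).toMonoidHom →
      (∃ b, IsQuad p X x b ∧ b ∈ Subgroup.normalizer (R : Set G) ∧ b ∈ C (g * x * g⁻¹) ∧
        ∀ y ∈ orb X x, R ≤ C y → Commute b y → y = g * x * g⁻¹) ∨
      (T.map (MulAut.conj g).toMonoidHom ≤ Subgroup.normalizer (R : Set G) ∧
        ∀ b ∈ T.map (MulAut.conj g).toMonoidHom, IsQuad p X x b → b ∈ R) := by
    intro g hg hRT
    set Tg := T.map (MulAut.conj g).toMonoidHom with hTg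
    have hTgX : Tg ≤ X := by
      rintro _ ⟨t, ht, rfl⟩; exact X.mul_mem (X.mul_mem hg (hTX ht)) (X.inv_mem hg)
    have hTgC : Tg ≤ C (g * x * g⁻¹) := hCconj g x T hTx
    set D := Subgroup.closure ((Tg : Set G) ∩ M)
    have hDT : D ≤ Tg := (Subgroup.closure_le _).2 fun _ h => h.1
    have hRD : R ≤ D := hRgen.le.trans (Subgroup.closure_mono fun b hb => ⟨hRT hb.1, hb.2⟩)
    rcases hRD.eq_or_lt with he | hlt
    · refine Or.inr ⟨fun t ht => ?_, fun b hb hq => he ▸ Subgroup.subset_closure ⟨hb, hq⟩⟩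
      rw [he]
      refine Subgroup.mem_normalizer_iff_map_conj_eq.2 ?_
      show D.map (MulAut.conj t).toMonoidHom = D
      refine Subgroup.eq_of_le_of_card_ge ?_ (by
        rw [Subgroup.card_map_of_injective (MulAut.conj t).injective])
      rw [MonoidHom.map_closure, Subgroup.closure_le]
      rintro _ ⟨b, ⟨hb, hq⟩, rfl⟩
      exact Subgroup.subset_closure
        ⟨Tg.mul_mem (Tg.mul_mem ht hb) (Tg.inv_mem ht), hq.conj (hTgX ht)⟩
    left
    set D1 := D ⊓ Subgroup.normalizer (R : Set G)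
    obtain ⟨b, hb, hbR⟩ : ∃ b ∈ (D1 : Set G) ∩ M, b ∉ R := by
      by_contra hall
      push Not at hall
      have hD : IsPGroup p D := (hT.map _).to_le hDT
      have h1 : Subgroup.closure ((D1 : Set G) ∩ M) = R := le_antisymm ((Subgroup.closure_le _).2 hall)
        (hRgen.le.trans (Subgroup.closure_mono fun c hc => ⟨⟨hRD hc.1, Subgroup.le_normalizer hc.1⟩, hc.2⟩))
      -- `N_D(D1)` normalises `R`
      have h2 : D ⊓ Subgroup.normalizer (D1 : Set G) ≤ D1 := by
        rintro d ⟨hd, hdn⟩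
        refine ⟨hd, ?_⟩
        refine Subgroup.mem_normalizer_iff_map_conj_eq.2 ?_
        show R.map (MulAut.conj d).toMonoidHom = R
        refine Subgroup.eq_of_le_of_card_ge ?_ (by
          rw [Subgroup.card_map_of_injective (MulAut.conj d).injective])
        rw [← h1, MonoidHom.map_closure, Subgroup.closure_le]
        rintro _ ⟨c, ⟨hc, hcq⟩, rfl⟩
        exact Subgroup.subset_closure
          ⟨(Subgroup.mem_normalizer_iff.1 hdn c).1 hc, hcq.conj (hTgX (hDT hd))⟩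
      rcases (inf_le_left : D1 ≤ D).eq_or_lt with he1 | hlt1
      · refine hlt.ne' (le_antisymm ((Subgroup.closure_le _).2 fun c hc => ?_) hRD)
        exact hall c ⟨he1.ge (Subgroup.subset_closure hc), hc.2⟩
      · haveI := hD.isNilpotent
        have hlt' : D1.subgroupOf D < ⊤ := lt_top_iff_ne_top.2 fun h =>
          hlt1.not_ge (Subgroup.subgroupOf_eq_top.1 h)
        obtain ⟨d, hd, hdn⟩ := SetLike.exists_of_lt (Group.normalizerCondition_of_isNilpotent _ hlt')
        refine hdn (h2 ⟨d.2, ?_⟩)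
        rw [← Subgroup.subgroupOf_normalizer_eq inf_le_left] at hd
        exact hd
    refine ⟨b, hb.2, hb.1.2, hTgC (hDT hb.1.1), fun y hy hRy hby => ?_⟩
    by_contra hyne
    set R' := Subgroup.closure ((R : Set G) ∩ M ∪ {b})
    have hR'D : R' ≤ D := (Subgroup.closure_le _).2 (Set.union_subset (fun c hc => hRD hc.1)
      (Set.singleton_subset_iff.2 hb.1.1))
    have hRR' : R < R' := lt_of_le_of_ne
      (hRgen.le.trans (Subgroup.closure_mono Set.subset_union_left))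
      fun e => hbR (e ▸ Subgroup.subset_closure (Or.inr rfl))
    have hmem : R' ∈ Fam := by
      refine ⟨hR'D.trans (hDT.trans hTgX), (hT.map _).to_le (hR'D.trans hDT), le_antisymm
        (Subgroup.closure_mono (Set.union_subset (fun c hc => ⟨hRR'.le hc.1, hc.2⟩)
          (Set.singleton_subset_iff.2 ⟨Subgroup.subset_closure (Or.inr rfl), hb.2⟩)))
        ((Subgroup.closure_le _).2 fun c hc => hc.1), y, hy, g * x * g⁻¹, ⟨g, hg, rfl⟩, hyne, ?_,
        (hR'D.trans hDT).trans hTgC⟩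
      refine (Subgroup.closure_le _).2 (Set.union_subset (fun c hc => hRy hc.1) ?_)
      exact Set.singleton_subset_iff.2 (Subgroup.mem_centralizer_singleton_iff.2 hby)
    exact absurd (hmax R' hmem) (not_le.2 (lt_of_le_of_ne (Subgroup.card_le_of_le hRR'.le)
      fun e => hRR'.ne (Subgroup.eq_of_le_of_card_ge hRR'.le e.ge)))
  -- `N_X(R)` fixes every point fixed by `R`
  have hfix : ∀ z ∈ orb X x, R ≤ C z → ∀ g ∈ N, g * z * g⁻¹ = z := by
    intro z hz hRz g hg
    obtain ⟨g₁, hg₁, hz₁, hRT⟩ := hsyl z hz R hRp hRX hRz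
    rcases hkey g₁ hg₁ hRT with ⟨b, hbq, hbN, hbz, honly⟩ | ⟨hTN, hall⟩
    · rw [hz₁] at hbz honly
      set Ω := (Set.toFinite {y | y ∈ orb X x ∧ R ≤ C y}).toFinset
      have hΩ : ∀ {y}, y ∈ Ω ↔ y ∈ orb X x ∧ R ≤ C y := fun {y} => Set.Finite.mem_toFinset _
      have hinv : ∀ h ∈ N, ∀ y ∈ Ω, h * y * h⁻¹ ∈ Ω := fun h hh y hy => hΩ.2
        ⟨conj_mem_orb hh.1 (hΩ.1 hy).1, by
          have := hCconj h y R (hΩ.1 hy).2
          rwa [map_eq_of_mem hh.2] at this⟩
      exact fix_of_sum hp2 Ω (fun y hy w hw => hcomm y (hΩ.1 hy).1 w (hΩ.1 hw).1)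
        (fun y hy w hw => hdiff y (hΩ.1 hy).1 w (hΩ.1 hw).1) (hΩ.2 ⟨hz, hRz⟩)
        (hinv b ⟨hbq.1, hbN⟩) hbq.2.1 (fun y hy => hbq.2.2 y (hΩ.1 hy).1)
        (Subgroup.mem_centralizer_singleton_iff.1 hbz)
        (fun y hy => honly y (hΩ.1 hy).1 (hΩ.1 hy).2) (hinv g hg)
    · -- all quadratic elements of the Sylow subgroup lie in `R`
      have hTgN : T.map (MulAut.conj g₁).toMonoidHom ≤ N := le_inf (by
        rintro _ ⟨t, ht, rfl⟩; exact X.mul_mem (X.mul_mem hg₁ (hTX ht)) (X.inv_mem hg₁)) hTN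
      by_cases hNX : N = X
      · -- `R` is normal and contains every quadratic element, so fixes everything
        exfalso
        have hRall : ∀ y ∈ orb X x, R ≤ C y := by
          rintro y ⟨h, hh, rfl⟩
          obtain ⟨u, hu, hu'⟩ := hz
          have := hCconj (h * u⁻¹) z R hRz
          rw [map_eq_of_mem (hNX.ge (X.mul_mem hh (X.inv_mem hu))).2, ← hu'] at this
          rwa [show h * u⁻¹ * (u * x * u⁻¹) * (h * u⁻¹)⁻¹ = h * x * h⁻¹ by group] at this
        obtain ⟨k, hk⟩ := ha.2.1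
        have hTs : ¬ p ∣ (T.subgroupOf X).index := hTi
        let TS : Sylow p X := IsPGroup.toSylow (hT.comap_subtype : IsPGroup p (T.subgroupOf X)) hTs
        have hA : IsPGroup p (Subgroup.zpowers (⟨a, ha.1⟩ : X)) := by
          obtain ⟨j, -, hj⟩ := (Nat.dvd_prime_pow hp.out).1
            (orderOf_dvd_of_pow_eq_one (show (⟨a, ha.1⟩ : X) ^ p ^ k = 1 from Subtype.ext hk))
          exact IsPGroup.of_card (n := j) (by rw [Nat.card_zpowers, hj])
        obtain ⟨U, hU⟩ := hA.exists_le_sylow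
        obtain ⟨h, hh⟩ := MulAction.exists_smul_eq X TS U
        have h1 := hU (Subgroup.mem_zpowers _)
        rw [← hh, Sylow.coe_subgroup_smul] at h1
        obtain ⟨t, ht, hte⟩ := h1
        have h2 : (h : G) * t * (h : G)⁻¹ = a := congrArg Subtype.val hte
        set w := g₁ * (h : G)⁻¹
        have hw : w ∈ X := X.mul_mem hg₁ (X.inv_mem h.2)
        have hb : w * a * w⁻¹ ∈ R := hall _ ⟨t, ht, by
          show g₁ * t * g₁⁻¹ = w * a * w⁻¹
          rw [← h2]; simp only [w]; group⟩ (ha.conj hw)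
        have := Subgroup.mem_centralizer_singleton_iff.1 (hRall _ (conj_mem_orb hw hy₀) hb)
        refine hay₀ ?_
        calc a * y₀ = w⁻¹ * ((w * a * w⁻¹) * (w * y₀ * w⁻¹)) * w := by group
          _ = w⁻¹ * ((w * y₀ * w⁻¹) * (w * a * w⁻¹)) * w := by rw [this]
          _ = y₀ * a := by group
      · -- `N` is a proper overgroup of a Sylow subgroup
        set N' := N.map (MulAut.conj g₁⁻¹).toMonoidHom
        have hN'X : N' ≤ X := by
          rintro _ ⟨n, hn, rfl⟩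
          exact X.mul_mem (X.mul_mem (X.inv_mem hg₁) hn.1) (X.inv_mem (X.inv_mem hg₁))
        have hlt : N' < X := lt_of_le_of_ne hN'X fun e => hNX <| Subgroup.eq_of_le_of_card_ge inf_le_left
          (by rw [← e, Subgroup.card_map_of_injective (MulAut.conj g₁⁻¹).injective])
        have hTN' : T ≤ N' := fun t ht => ⟨g₁ * t * g₁⁻¹, hTgN ⟨t, ht, rfl⟩, by simp [mul_assoc]⟩
        have h1 := Subgroup.mem_centralizer_singleton_iff.1 (hproper N' hTN' hlt ⟨g, hg, rfl⟩)
        simp only [MulEquiv.coe_toMonoidHom, MulAut.conj_apply, inv_inv] at h1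
        rw [← hz₁]
        calc g * (g₁ * x * g₁⁻¹) * g⁻¹ = g₁ * ((g₁⁻¹ * g * g₁) * x) * (g₁⁻¹ * g⁻¹) := by group
          _ = g₁ * (x * (g₁⁻¹ * g * g₁)) * (g₁⁻¹ * g⁻¹) := by rw [h1]
          _ = g₁ * x * g₁⁻¹ := by group
  obtain ⟨g₁, hg₁, rfl, hRT⟩ := hsyl y₁ hy₁ R hRp hRX hR1
  rcases hkey g₁ hg₁ hRT with ⟨b, hbq, hbN, -, honly⟩ | ⟨hTN, -⟩
  · exact hne (honly y₂ hy₂ hR2 (mul_inv_eq_iff_eq_mul.1 (hfix y₂ hy₂ hR2 b ⟨hbq.1, hbN⟩))).symm
  · refine hne ?_
    obtain ⟨h, hh, rfl⟩ := hy₂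
    have h3 : T ≤ C (g₁⁻¹ * (h * x * h⁻¹) * g₁⁻¹⁻¹) := by
      intro t ht
      have hm : g₁ * t * g₁⁻¹ ∈ N :=
        ⟨X.mul_mem (X.mul_mem hg₁ (hTX ht)) (X.inv_mem hg₁), hTN ⟨t, ht, rfl⟩⟩
      have := hfix _ ⟨h, hh, rfl⟩ hR2 _ hm
      rw [Subgroup.mem_centralizer_singleton_iff]
      refine mul_inv_eq_iff_eq_mul.1 ?_
      calc t * (g₁⁻¹ * (h * x * h⁻¹) * g₁⁻¹⁻¹) * t⁻¹
          = g₁⁻¹ * (g₁ * t * g₁⁻¹ * (h * x * h⁻¹) * (g₁ * t * g₁⁻¹)⁻¹) * g₁ := by group
        _ = _ := by rw [this, inv_inv]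
    have := huniq _ (conj_mem_orb (X.inv_mem hg₁) ⟨h, hh, rfl⟩) h3
    calc g₁ * x * g₁⁻¹ = g₁ * (g₁⁻¹ * (h * x * h⁻¹) * g₁⁻¹⁻¹) * g₁⁻¹ := by rw [this]
      _ = h * x * h⁻¹ := by group

end CfsgLib.WeakCentral
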