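import Mathlib
import Cfsg.Agent.WeakCentral.Quadratic
import Cfsg.Agent.ZJ.Replacement
import Cfsg.Agent.ZJ.Glauberman
import Cfsg.Agent.Fusion.GroupAlperin

/-!
For odd `p`, a central element of a Sylow subgroup `S` centralised by `N(J(S))` is its only conjugate
in `S`.
-/

set_option autoImplicit false
set_option linter.style.haveILetI false
set_option linter.unusedSectionVars false

namespace CfsgLib.WeakCentral

open scoped commutatorElement

variable {G : Type*} [Group G] [Finite G] {p : ℕ} [hp : Fact p.Prime]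

theorem normalizer_le_normalizer_J (T : Subgroup G) :
    Subgroup.normalizer (T : Set G) ≤ Subgroup.normalizer (ZJ.J p false T : Set G) := by
  intro n hn
  refine Subgroup.mem_normalizer_iff_map_conj_eq.2 ?_
  have h := ZJ.J_map (p := p) (el := false) (MulAut.conj n).toMonoidHom (S := T)
    (fun x _ hx => (MulAut.conj n).injective (hx.trans (map_one (MulAut.conj n)).symm))
  exact h.symm.trans (congrArg _ (map_eq_of_mem hn))

theorem mem_J_of_central {T : Subgroup G} {x : G} (hx : x ∈ T)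
    (hc : T ≤ Subgroup.centralizer {x}) : x ∈ ZJ.J p false T := by
  obtain ⟨A, hA⟩ := ZJ.maxGood_nonempty p false T
  exact ZJ.maxGood_le_J hA (ZJ.mem_of_maxGood hA hx
    (fun a ha => Subgroup.mem_centralizer_singleton_iff.1 (hc (hA.1 ha))) (fun h => absurd h (by decide)))

/-- The main local step. -/
theorem le_centralizer_of_local (hp2 : p ≠ 2) {x : G} {D X T : Subgroup G}
    (hTX : T ≤ X) (hT : IsPGroup p T) (hTi : ¬ p ∣ T.relIndex X) (hTx : T ≤ Subgroup.centralizer {x})
    (hDT : D ≤ T) (hXD : X ≤ Subgroup.normalizer (D : Set G)) (hxD : x ∈ D)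
    (hcen : D ≤ Subgroup.centralizer {x})
    (hdiff : ∀ y ∈ orb X x, ∀ w ∈ orb X x, (y * w⁻¹) ^ p = 1)
    (hNJ : Subgroup.normalizer (ZJ.J p false T : Set G) ⊓ X ≤ Subgroup.centralizer {x}) :
    X ≤ Subgroup.centralizer {x} := by
  classical
  by_contra hnot
  obtain ⟨Y, ⟨hTY, hYX, hY⟩, hmin⟩ :=
    (Set.toFinite {Y : Subgroup G | T ≤ Y ∧ Y ≤ X ∧ ¬ Y ≤ Subgroup.centralizer {x}}).exists_minimal
      ⟨X, hTX, le_rfl, hnot⟩
  have hTiY : ¬ p ∣ T.relIndex Y := fun h =>
    hTi (h.trans (Dvd.intro _ (Subgroup.relIndex_mul_relIndex T Y X hTY hYX)))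
  have hproper : ∀ X' : Subgroup G, T ≤ X' → X' < Y → X' ≤ Subgroup.centralizer {x} := by
    intro X' h1 h2
    by_contra h3
    exact h2.not_ge (hmin ⟨h1, h2.le.trans hYX, h3⟩ h2.le)
  have horbD : ∀ y ∈ orb Y x, y ∈ D ∧ D ≤ Subgroup.centralizer {y} := by
    rintro _ ⟨g, hg, rfl⟩
    refine ⟨(Subgroup.mem_normalizer_iff.1 (hXD (hYX hg)) x).1 hxD, fun d hd => ?_⟩
    have hd' := (Subgroup.mem_normalizer_iff.1 ((Subgroup.normalizer _).inv_mem (hXD (hYX hg))) d).1 hd
    have h := Subgroup.mem_centralizer_singleton_iff.1 (hcen hd')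
    rw [Subgroup.mem_centralizer_singleton_iff]
    calc d * (g * x * g⁻¹) = g * ((g⁻¹ * d * g⁻¹⁻¹) * x) * g⁻¹ := by group
      _ = g * (x * (g⁻¹ * d * g⁻¹⁻¹)) * g⁻¹ := by rw [h]
      _ = g * x * g⁻¹ * d := by group
  have hcomm : ∀ y ∈ orb Y x, ∀ w ∈ orb Y x, Commute y w := fun y hy w hw =>
    Subgroup.mem_centralizer_singleton_iff.1 ((horbD w hw).2 (horbD y hy).1)
  have hdiff' : ∀ y ∈ orb Y x, ∀ w ∈ orb Y x, (y * w⁻¹) ^ p = 1 := fun y ⟨g, hg, hy⟩ w ⟨h, hh, hw⟩ =>
    hdiff y ⟨g, hYX hg, hy⟩ w ⟨h, hYX hh, hw⟩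
  have hNT : Subgroup.normalizer (T : Set G) ⊓ Y ≤ Subgroup.centralizer {x} :=
    (inf_le_inf (normalizer_le_normalizer_J T) hYX).trans hNJ
  have huniq : ∀ y ∈ orb Y x, T ≤ Subgroup.centralizer {y} → y = x := by
    rintro _ ⟨g, hg, rfl⟩ hTy
    set H := Y ⊓ Subgroup.centralizer {g * x * g⁻¹}
    have hTg : T.map (MulAut.conj g).toMonoidHom ≤ H := by
      rintro _ ⟨t, ht, rfl⟩
      refine ⟨Y.mul_mem (Y.mul_mem hg (hTY ht)) (Y.inv_mem hg), Subgroup.mem_centralizer_singleton_iff.2 ?_⟩
      have h := Subgroup.mem_centralizer_singleton_iff.1 (hTx ht)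
      show g * t * g⁻¹ * (g * x * g⁻¹) = g * x * g⁻¹ * (g * t * g⁻¹)
      calc g * t * g⁻¹ * (g * x * g⁻¹) = g * (t * x) * g⁻¹ := by group
        _ = g * (x * t) * g⁻¹ := by rw [h]
        _ = _ := by group
    have hTH : T ≤ H := le_inf hTY hTy
    have hi : ∀ U : Subgroup G, U ≤ H → Nat.card U = Nat.card T → ¬ p ∣ (U.subgroupOf H).index := by
      intro U hU hcard hd
      have hU' : U.relIndex Y = T.relIndex Y := by
        have h1 := Subgroup.relIndex_mul_relIndex ⊥ U Y bot_le (hU.trans inf_le_left)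
        have h2 := Subgroup.relIndex_mul_relIndex ⊥ T Y bot_le hTY
        rw [Subgroup.relIndex_bot_left, Subgroup.relIndex_bot_left] at h1 h2
        rw [hcard] at h1
        exact Nat.eq_of_mul_eq_mul_left Nat.card_pos (h1.trans h2.symm)
      exact hTiY (hU' ▸ hd.trans (Dvd.intro _ (Subgroup.relIndex_mul_relIndex U H Y hU inf_le_left)))
    let S1 : Sylow p H := IsPGroup.toSylow ((hT.map _).comap_subtype :
      IsPGroup p ((T.map (MulAut.conj g).toMonoidHom).subgroupOf H))
      (hi _ hTg (Subgroup.card_map_of_injective (MulAut.conj g).injective))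
    let S2 : Sylow p H := IsPGroup.toSylow (hT.comap_subtype : IsPGroup p (T.subgroupOf H)) (hi T hTH rfl)
    obtain ⟨c, hc⟩ := MulAction.exists_smul_eq H S1 S2
    have hn : (c : G) * g ∈ Subgroup.normalizer (T : Set G) := by
      refine Subgroup.mem_normalizer_fintype fun t ht => ?_
      have h1 : c • S1 = S2 := hc
      have h2 : MulAut.conj c • (⟨g * t * g⁻¹, hTg ⟨t, ht, rfl⟩⟩ : H) ∈ (S2 : Subgroup H) := by
        rw [← h1, Sylow.coe_subgroup_smul]
        exact Subgroup.smul_mem_pointwise_smul _ _ _ ⟨t, ht, rfl⟩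
      show (c : G) * g * t * ((c : G) * g)⁻¹ ∈ T
      have h3 : (c : G) * (g * t * g⁻¹) * (c : G)⁻¹ ∈ T := h2
      rwa [show (c : G) * g * t * ((c : G) * g)⁻¹ = (c : G) * (g * t * g⁻¹) * (c : G)⁻¹ by group]
    have h4 := Subgroup.mem_centralizer_singleton_iff.1 (hNT ⟨hn, Y.mul_mem c.2.1 hg⟩)
    have h5 := Subgroup.mem_centralizer_singleton_iff.1 c.2.2
    calc g * x * g⁻¹ = (c : G) * (g * x * g⁻¹) * (c : G)⁻¹ := by rw [h5, mul_inv_cancel_right]
      _ = ((c : G) * g * x) * ((c : G) * g)⁻¹ := by group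
      _ = x := by rw [h4, mul_inv_cancel_right]
  -- the abelian normal subgroup spanned by the orbit
  set V := Subgroup.closure (orb Y x) with hV
  haveI hVc : IsMulCommutative V := Subgroup.isMulCommutative_closure fun y hy w hw => hcomm y hy w hw
  have hVD : V ≤ D := (Subgroup.closure_le _).2 fun y hy => (horbD y hy).1
  have hYV : Y ≤ Subgroup.normalizer (V : Set G) := by
    intro g hg
    refine Subgroup.mem_normalizer_iff_map_conj_eq.2 ?_
    show V.map (MulAut.conj g).toMonoidHom = V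
    refine Subgroup.eq_of_le_of_card_ge ?_ (by
      rw [Subgroup.card_map_of_injective (MulAut.conj g).injective])
    rw [hV, MonoidHom.map_closure, Subgroup.closure_le]
    rintro _ ⟨y, hy, rfl⟩
    exact Subgroup.subset_closure (conj_mem_orb hg hy)
  -- the maximal abelian subgroups of `T` centralise `V`
  have hJ : ZJ.J p false T ≤ Subgroup.centralizer (V : Set G) := by
    refine sSup_le fun A hA => ?_
    by_contra hAV
    obtain ⟨A, ⟨hA, hAV⟩, hmax⟩ := Set.exists_max_image
      {A : Subgroup G | A ∈ ZJ.maxGood p false T ∧ ¬ A ≤ Subgroup.centralizer (V : Set G)}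
      (fun A => Nat.card ↥(A ⊓ V)) (Set.toFinite _) ⟨A, hA, hAV⟩
    haveI := hA.2.1.1
    have hAY : A ≤ Y := hA.1.trans hTY
    by_cases hVA : V ≤ Subgroup.normalizer (A : Set G)
    · refine hAV fun a ha => Subgroup.mem_centralizer_iff.2 fun v hv => ?_
      have hAc : A ≤ Subgroup.centralizer (orb Y x) := by
        intro b hb
        refine Subgroup.mem_centralizer_iff.2 fun y hy => ?_
        have hquad : IsQuad p Y x b := by
          refine ⟨hAY hb, ?_, fun w hw => ?_⟩
          · obtain ⟨k, hk⟩ := hT ⟨b, hA.1 hb⟩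
            exact ⟨k, by simpa using congrArg Subtype.val hk⟩
          · have h1 : ⁅b, w⁆ ∈ A := by
              rw [commutatorElement_def, mul_assoc, mul_assoc, ← mul_assoc w]
              exact A.mul_mem hb
                ((Subgroup.mem_normalizer_iff.1 (hVA (Subgroup.subset_closure hw)) _).1 (A.inv_mem hb))
            exact setLike_mul_comm hb h1
        exact (quad_centralizes hp2 hTY hT hTiY hTx hcomm hdiff' huniq hproper hquad y hy).symm.eq
      have : (V : Subgroup G) ≤ Subgroup.centralizer (A : Set G) := (Subgroup.closure_le _).2 fun y hy =>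
        Subgroup.mem_centralizer_iff.2 fun b hb => (Subgroup.mem_centralizer_iff.1 (hAc hb) y hy).symm
      exact (Subgroup.mem_centralizer_iff.1 (this hv) a ha).symm
    · have hVT : V ≤ T := hVD.trans hDT
      have hVV : ⁅V, V⁆ = ⊥ := Subgroup.commutator_eq_bot_iff_le_centralizer.2 fun u hu =>
        Subgroup.mem_centralizer_iff.2 fun w hw => setLike_mul_comm hw hu
      obtain ⟨A', hA', hlt, hn⟩ := ZJ.exists_maxGood_gt hA (hT.to_le (sup_le hA.1 hVT)) (hAY.trans hYV)
        (hVT.trans Subgroup.le_normalizer) (by rw [hVV]; exact bot_le)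
        (by rw [hVV, Subgroup.commutator_bot_left]) (Or.inl hp2) hVA
      by_cases hA'V : A' ≤ Subgroup.centralizer (V : Set G)
      · refine hVA (fun v hv => hn ?_)
        exact ZJ.mem_of_maxGood hA' (hVT hv)
          (fun a ha => (Subgroup.mem_centralizer_iff.1 (hA'V ha) v hv).symm) (fun h => absurd h (by decide))
      · exact absurd (hmax A' ⟨hA', hA'V⟩) (not_le.2 (lt_of_le_of_ne (Subgroup.card_le_of_le hlt.le)
          fun e => hlt.ne (Subgroup.eq_of_le_of_card_ge hlt.le e.ge)))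
  -- the Frattini argument
  set C0 := (Subgroup.centralizer (V : Set G)).subgroupOf Y with hC0
  haveI hC0n : C0.Normal := by
    refine ⟨fun c hc g => Subgroup.mem_subgroupOf.2 (Subgroup.mem_centralizer_iff.2 fun v hv => ?_)⟩
    have hv' := (Subgroup.mem_normalizer_iff.1 ((Subgroup.normalizer _).inv_mem (hYV g.2)) v).1 hv
    have h : ((g : G)⁻¹ * v * (g : G)⁻¹⁻¹) * (c : G) = (c : G) * ((g : G)⁻¹ * v * (g : G)⁻¹⁻¹) :=
      Subgroup.mem_centralizer_iff.1 hc _ hv'
    simp only [Subgroup.coe_mul, Subgroup.coe_inv]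
    calc v * ((g : G) * c * (g : G)⁻¹) = g * (((g : G)⁻¹ * v * (g : G)⁻¹⁻¹) * c) * (g : G)⁻¹ := by group
      _ = g * ((c : G) * ((g : G)⁻¹ * v * (g : G)⁻¹⁻¹)) * (g : G)⁻¹ := by rw [h]
      _ = (g : G) * c * (g : G)⁻¹ * v := by group
  set TY := T.subgroupOf Y
  let TS : Sylow p Y := IsPGroup.toSylow (hT.comap_subtype : IsPGroup p TY) hTiY
  obtain ⟨P1, hP1⟩ := Transfer.exists_sylow_map_eq_inf TS C0
  have hfr := Sylow.normalizer_sup_eq_top P1
  rw [hP1] at hfr
  set P1g := ((TS : Subgroup Y) ⊓ C0).map Y.subtype with hP1g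
  have hP1T : P1g ≤ T := by rintro _ ⟨u, hu, rfl⟩; exact hu.1
  have hJP1 : ZJ.J p false T ≤ P1g := fun j hj =>
    ⟨⟨j, hTY (ZJ.J_le T hj)⟩, ⟨ZJ.J_le T hj, hJ hj⟩, rfl⟩
  have hJeq : ZJ.J p false P1g = ZJ.J p false T := ZJ.J_eq_of_le hJP1 hP1T
  refine hY fun g hg => ?_
  obtain ⟨m, hm, c, hc, hmc⟩ := Subgroup.mem_sup_of_normal_right.1 (hfr.ge (Subgroup.mem_top (⟨g, hg⟩ : Y)))
  have hmN : (m : G) ∈ Subgroup.normalizer (P1g : Set G) :=
    Subgroup.le_normalizer_map _ (Subgroup.mem_map_of_mem _ hm)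
  have hm' := normalizer_le_normalizer_J (p := p) P1g hmN
  rw [hJeq] at hm'
  have h1 : (m : G) ∈ Subgroup.centralizer {x} := hNJ ⟨hm', hYX m.2⟩
  have h2 : (c : G) ∈ Subgroup.centralizer {x} := Subgroup.mem_centralizer_singleton_iff.2
    (Subgroup.mem_centralizer_iff.1 hc x (Subgroup.subset_closure (self_mem_orb Y x))).symm
  have : g = (m : G) * c := (congrArg Subtype.val hmc).symm
  rw [this]
  exact Subgroup.mul_mem _ h1 h2

theorem chain_fix {S : Sylow p G} {x : G} {n : ℕ}
    (h : ∀ D : Subgroup G, D ≤ (S : Subgroup G) → x ∈ D →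
      ¬ p ∣ ((S : Subgroup G) ⊓ Subgroup.normalizer (D : Set G)).relIndex (Subgroup.normalizer (D : Set G)) →
      n < Nat.card D → Subgroup.normalizer (D : Set G) ≤ Subgroup.centralizer {x})
    {T : Subgroup G} {g : G} (hc : GroupAlperin.AChain S T g) :
    x ∈ T → n < Nat.card T → g ∈ Subgroup.centralizer {x} := by
  induction hc with
  | nil _ => exact fun _ _ => Subgroup.one_mem _
  | @cons T Q x' y htame hx' _ hT _ ih =>
    intro hxT hn
    have h1 : x' ∈ Subgroup.centralizer {x} :=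
      h _ inf_le_left (hT hxT) htame.1 (hn.trans_le (Subgroup.card_le_of_le hT)) hx'
    refine Subgroup.mul_mem _ h1 (ih ?_ (by rwa [GroupAlperin.card_cj]))
    rw [GroupAlperin.mem_cj, Subgroup.mem_centralizer_singleton_iff.1 h1, mul_inv_cancel_right]
    exact hxT

/-- **Weak closure of central elements.** -/
theorem isolated (hp2 : p ≠ 2) (S : Sylow p G) : ∀ (o : ℕ) (x : G), orderOf x = o →
    x ∈ (S : Subgroup G) → (S : Subgroup G) ≤ Subgroup.centralizer {x} →
    Subgroup.normalizer (ZJ.J p false (S : Subgroup G) : Set G) ≤ Subgroup.centralizer {x} →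
    ∀ g : G, g * x * g⁻¹ ∈ (S : Subgroup G) → g * x * g⁻¹ = x := by
  intro o
  induction o using Nat.strong_induction_on with
  | _ o iho =>
  intro x ho hxS hcS hNJ g hg
  rcases eq_or_ne x 1 with rfl | hx1
  · group
  -- powers
  have hpow : ∀ h : G, h * x * h⁻¹ ∈ (S : Subgroup G) → (h * x * h⁻¹) ^ p = x ^ p := by
    intro h hh
    obtain ⟨k, hk⟩ := S.2 ⟨x, hxS⟩
    have hk' : orderOf x ∣ p ^ k := orderOf_dvd_of_pow_eq_one (by simpa using congrArg Subtype.val hk)
    have hlt : orderOf (x ^ p) < o := by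
      obtain ⟨j, -, hj⟩ := (Nat.dvd_prime_pow hp.out).1 hk'
      have hj0 : j ≠ 0 := fun e => hx1 (orderOf_eq_one_iff.1 (by rw [hj, e, pow_zero]))
      have hdvd : p ∣ orderOf x := hj ▸ dvd_pow_self p hj0
      rw [orderOf_pow_of_dvd hp.out.ne_zero hdvd, ← ho]
      exact Nat.div_lt_self (orderOf_pos x) hp.out.one_lt
    have hsub : ∀ u, u ∈ Subgroup.centralizer {x} → u ∈ Subgroup.centralizer {x ^ p} := fun u hu =>
      Subgroup.mem_centralizer_singleton_iff.2
        ((show Commute u x from Subgroup.mem_centralizer_singleton_iff.1 hu).pow_right p).eq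
    have := iho _ hlt (x ^ p) rfl (Subgroup.pow_mem _ hxS p) (fun u hu => hsub u (hcS hu))
      (fun u hu => hsub u (hNJ hu)) h (by rw [← conj_pow]; exact Subgroup.pow_mem _ hh p)
    rwa [← conj_pow] at this
  -- every fully normalised subgroup containing `x`
  have key : ∀ (m : ℕ) (D : Subgroup G), D ≤ (S : Subgroup G) → x ∈ D →
      ¬ p ∣ ((S : Subgroup G) ⊓ Subgroup.normalizer (D : Set G)).relIndex (Subgroup.normalizer (D : Set G)) →
      Nat.card G - Nat.card ↥((S : Subgroup G) ⊓ Subgroup.normalizer (D : Set G)) = m →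
      Subgroup.normalizer (D : Set G) ≤ Subgroup.centralizer {x} := by
    intro m
    induction m using Nat.strong_induction_on with
    | _ m ihm =>
    intro D hDS hxD hfull hm
    set X := Subgroup.normalizer (D : Set G) with hX
    set T := (S : Subgroup G) ⊓ X with hT
    have hDT : D ≤ T := le_inf hDS Subgroup.le_normalizer
    have hTc : T ≤ Subgroup.centralizer {x} := inf_le_left.trans hcS
    refine le_centralizer_of_local hp2 inf_le_right (S.2.to_le inf_le_left) hfull hTc hDT le_rfl hxD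
      (hDS.trans hcS) ?_ ?_
    · have hpw : ∀ y ∈ orb X x, y ^ p = x ^ p := by
        rintro _ ⟨h, hh, rfl⟩
        exact hpow h (hDS ((Subgroup.mem_normalizer_iff.1 hh x).1 hxD))
      intro y hy w hw
      have hc : Commute y w := by
        obtain ⟨h, hh, rfl⟩ := hy
        obtain ⟨h', hh', rfl⟩ := hw
        set u := (h' : G)⁻¹ * h
        have hu : u ∈ X := X.mul_mem (X.inv_mem hh') hh
        have h1 : Commute (u * x * u⁻¹) x :=
          Subgroup.mem_centralizer_singleton_iff.1 (hcS (hDS ((Subgroup.mem_normalizer_iff.1 hu x).1 hxD)))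
        have := h1.map (MulAut.conj h').toMonoidHom
        simp only [MulEquiv.coe_toMonoidHom, MulAut.conj_apply] at this
        rwa [show h' * (u * x * u⁻¹) * h'⁻¹ = h * x * h⁻¹ by simp only [u]; group] at this
      rw [hc.inv_right.mul_pow, inv_pow, hpw y hy, hpw w hw, mul_inv_cancel]
    · intro u hu
      rcases (inf_le_left : T ≤ (S : Subgroup G)).eq_or_lt with hTS | hTS
      · exact hNJ (hTS ▸ hu.1)
      set J0 := ZJ.J p false T with hJ0
      have hxJ : x ∈ J0 := mem_J_of_central ⟨hxS, Subgroup.le_normalizer hxD⟩ hTc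
      obtain hlt := GroupAlperin.lt_inf_normalizer hTS
      set R := (S : Subgroup G) ⊓ Subgroup.normalizer (J0 : Set G) with hR
      have hTR : T < R := hlt.trans_le (le_inf inf_le_left (inf_le_right.trans (normalizer_le_normalizer_J T)))
      obtain ⟨U, hRU, hUfull⟩ := GroupAlperin.exists_sylow_inf (p := p) (S.2.to_le inf_le_left : IsPGroup p R)
        (inf_le_right : R ≤ Subgroup.normalizer (J0 : Set G))
      obtain ⟨h, hh⟩ := MulAction.exists_smul_eq G U S
      -- `h` carries `U` to `S`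
      have hUS : GroupAlperin.cj (U : Subgroup G) h⁻¹ = (S : Subgroup G) := by
        rw [← hh, Sylow.coe_subgroup_smul, GroupAlperin.cj, inv_inv]; rfl
      have hcard : Nat.card T < Nat.card R := GroupAlperin.card_lt_of_lt hTR
      have hchain := GroupAlperin.exists_chain_of_fusion S (T := R) (g := h⁻¹) inf_le_left
        ((GroupAlperin.cj_mono hRU h⁻¹).trans hUS.le)
      have hhx : h⁻¹ ∈ Subgroup.centralizer {x} := by
        refine chain_fix (n := Nat.card T) ?_ hchain ⟨hxS, Subgroup.le_normalizer hxJ⟩ hcard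
        intro D' hD'S hxD' hfull' hn'
        refine ihm _ ?_ D' hD'S hxD' hfull' rfl
        rw [← hm]
        have h1 : Nat.card T < Nat.card ↥((S : Subgroup G) ⊓ Subgroup.normalizer (D' : Set G)) :=
          hn'.trans_le (Subgroup.card_le_of_le (le_inf hD'S Subgroup.le_normalizer))
        have h2 := Subgroup.card_le_card_group ((S : Subgroup G) ⊓ Subgroup.normalizer (D' : Set G))
        omega
      set J1 := GroupAlperin.cj J0 h⁻¹ with hJ1
      have hfull1 : ¬ p ∣ ((S : Subgroup G) ⊓ Subgroup.normalizer (J1 : Set G)).relIndex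
          (Subgroup.normalizer (J1 : Set G)) := by
        rw [hJ1, ← GroupAlperin.cj_normalizer, ← hUS, ← GroupAlperin.cj_inf, GroupAlperin.relIndex_cj]
        exact hUfull
      have hxh := Subgroup.mem_centralizer_singleton_iff.1 hhx
      have hxJ1 : x ∈ J1 := by
        rw [hJ1, GroupAlperin.mem_cj, hxh, mul_inv_cancel_right]; exact hxJ
      have hJ1S : J1 ≤ (S : Subgroup G) :=
        (GroupAlperin.cj_mono ((le_inf ((ZJ.J_le T).trans inf_le_left) Subgroup.le_normalizer :
          J0 ≤ R).trans hRU) h⁻¹).trans hUS.le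
      have hN1 := ihm (Nat.card G - Nat.card ↥((S : Subgroup G) ⊓ Subgroup.normalizer (J1 : Set G))) (by
        rw [← hm]
        have h1 : Nat.card R ≤ Nat.card ↥((S : Subgroup G) ⊓ Subgroup.normalizer (J1 : Set G)) := by
          rw [← GroupAlperin.card_cj R h⁻¹]
          refine Subgroup.card_le_of_le (le_inf ((GroupAlperin.cj_mono hRU h⁻¹).trans hUS.le) ?_)
          rw [hJ1, ← GroupAlperin.cj_normalizer]
          exact GroupAlperin.cj_mono inf_le_right _
        have h2 := Subgroup.card_le_card_group ((S : Subgroup G) ⊓ Subgroup.normalizer (J1 : Set G))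
        omega) J1 hJ1S hxJ1 hfull1 rfl
      have hu1 : h * u * h⁻¹ ∈ Subgroup.normalizer (J1 : Set G) := by
        rw [hJ1, ← GroupAlperin.cj_normalizer, GroupAlperin.mem_cj]
        simpa [mul_assoc] using hu.1
      have h3 := hN1 hu1
      have h4 : h ∈ Subgroup.centralizer {x} := inv_inv h ▸ (Subgroup.centralizer {x}).inv_mem hhx
      have h5 := (Subgroup.centralizer {x}).mul_mem ((Subgroup.centralizer {x}).mul_mem
        ((Subgroup.centralizer {x}).inv_mem h4) h3) h4
      simpa [mul_assoc] using h5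
  have hchain := GroupAlperin.exists_chain_of_fusion S (T := Subgroup.zpowers x) (g := g⁻¹)
    (Subgroup.zpowers_le.2 hxS) (by
      rw [GroupAlperin.cj, inv_inv, MonoidHom.map_zpowers, Subgroup.zpowers_le]
      simpa using hg)
  have h1 := Subgroup.mem_centralizer_singleton_iff.1 (chain_fix (n := 0)
    (fun D hD hxD hf _ => key _ D hD hxD hf rfl) hchain (Subgroup.mem_zpowers x) Nat.card_pos)
  calc g * x * g⁻¹ = g * (x * g⁻¹) := by group
    _ = g * (g⁻¹ * x) := by rw [h1]
    _ = x := by group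

end CfsgLib.WeakCentral
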